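import Cfsg.Agent.H413.L64.TorZ

/-!
S5917, frame of type (A): a symmetric matrix of `SL₃` over an algebraically closed field of
characteristic two has an orthonormal basis.
-/

set_option autoImplicit false

namespace Cfsg.Agent.H389.L34

open Matrix

section gen

variable {K : Type*} [Field K] [IsAlgClosed K]

theorem exists_sqrt (a : K) : ∃ s : K, s * s = a := by
  obtain ⟨s, hs⟩ := IsAlgClosed.exists_pow_nat_eq a (n := 2) (by norm_num)
  exact ⟨s, by rw [← hs, pow_two]⟩

/-- Scaling: a vector of nonzero norm can be made of norm one. -/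
theorem exists_unit {V : Type*} [AddCommGroup V] [Module K V] (B : LinearMap.BilinForm K V)
    {v : V} (hv : B v v ≠ 0) : ∃ t : K, B (t • v) (t • v) = 1 := by
  obtain ⟨s, hs⟩ := exists_sqrt (B v v)
  have hs0 : s ≠ 0 := by rintro rfl; exact hv (by rw [← hs, mul_zero])
  refine ⟨s⁻¹, ?_⟩
  simp only [map_smul, LinearMap.smul_apply, smul_eq_mul]
  rw [← hs]
  field_simp

/-- Three orthonormal vectors. -/
theorem exists_orth {V : Type*} [AddCommGroup V] [Module K V] [Module.Finite K V]
    (h2 : (2 : K) = 0) (hV : Module.finrank K V = 3)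
    (B : LinearMap.BilinForm K V) (hsy : ∀ u v, B u v = B v u)
    (hnd : ∀ u, (∀ v, B u v = 0) → u = 0) {u₀ : V} (hu₀ : B u₀ u₀ ≠ 0) :
    ∃ r : Fin 3 → V, ∀ i j, B (r i) (r j) = if i = j then 1 else 0 := by
  have hadd : ∀ a : K, a + a = 0 := fun a => by rw [← two_mul, h2, zero_mul]
  obtain ⟨u, ht⟩ : ∃ u, B u u = 1 := by
    obtain ⟨t, ht⟩ := exists_unit B hu₀
    exact ⟨_, ht⟩
  by_cases hW : ∃ v, B u v = 0 ∧ B v v ≠ 0
  · obtain ⟨v, hs, huv⟩ : ∃ v, B v v = 1 ∧ B u v = 0 := by
      obtain ⟨v₀, hv0, hv1⟩ := hW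
      obtain ⟨s, hs⟩ := exists_unit B hv1
      exact ⟨s • v₀, hs, by rw [map_smul, hv0, smul_zero]⟩
    have hvu : B v u = 0 := by rw [hsy, huv]
    -- a vector orthogonal to both
    let f : V →ₗ[K] (Fin 2 → K) := LinearMap.pi ![B u, B v]
    have hf : LinearMap.ker f ≠ ⊥ := by
      apply LinearMap.ker_ne_bot_of_finrank_lt
      rw [hV]; simp
    obtain ⟨w₀, hw0, hw1⟩ := (Submodule.ne_bot_iff _).mp hf
    rw [LinearMap.mem_ker] at hw0
    have h1 : B u w₀ = 0 := by
      have := congrFun hw0 0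
      simpa [f] using this
    have h3 : B v w₀ = 0 := by
      have := congrFun hw0 1
      simpa [f] using this
    have hw2 : B w₀ w₀ ≠ 0 := by
      intro h0
      -- u, v, w₀ is a basis
      have hli : LinearIndependent K ![u, v, w₀] := by
        rw [Fintype.linearIndependent_iff]
        intro g hg
        rw [Fin.sum_univ_three] at hg
        simp only [Matrix.cons_val_zero, Matrix.cons_val_one, Matrix.cons_val_two,
          Matrix.tail_cons, Matrix.head_cons] at hg
        have e0 := congrArg (B u) hg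
        have e1 := congrArg (B v) hg
        simp only [map_add, map_smul, smul_eq_mul, ht, huv, hvu, h1, h3, hs, map_zero, mul_zero,
          mul_one, add_zero, zero_add] at e0 e1
        have e2 : g 2 • w₀ = 0 := by
          rw [e0, e1, zero_smul, zero_smul, zero_add, zero_add] at hg
          exact hg
        have e3 : g 2 = 0 := (smul_eq_zero.mp e2).resolve_right hw1
        intro i
        fin_cases i
        exacts [e0, e1, e3]
      have hspan : ∀ x : V, ∃ a b d : K, x = a • u + b • v + d • w₀ := by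
        intro x
        have hb : Submodule.span K (Set.range ![u, v, w₀]) = ⊤ := by
          apply hli.span_eq_top_of_card_eq_finrank'
          simp [hV]
        have hx : x ∈ Submodule.span K (Set.range ![u, v, w₀]) := by rw [hb]; trivial
        obtain ⟨g, hg⟩ := (Submodule.mem_span_range_iff_exists_fun K).mp hx
        refine ⟨g 0, g 1, g 2, ?_⟩
        rw [← hg, Fin.sum_univ_three]
        simp
      apply hw1
      apply hnd
      intro x
      obtain ⟨a, b, d, rfl⟩ := hspan x
      simp only [map_add, map_smul, smul_eq_mul, h0, mul_zero, add_zero]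
      rw [hsy w₀ u, hsy w₀ v, h1, h3]
      simp
    obtain ⟨w, hq, huw, hvw⟩ : ∃ w, B w w = 1 ∧ B u w = 0 ∧ B v w = 0 := by
      obtain ⟨q, hq⟩ := exists_unit B hw2
      exact ⟨q • w₀, hq, by rw [map_smul, h1, smul_zero], by rw [map_smul, h3, smul_zero]⟩
    have hwu : B w u = 0 := by rw [hsy, huw]
    have hwv : B w v = 0 := by rw [hsy, hvw]
    refine ⟨![u, v, w], ?_⟩
    intro i j
    fin_cases i <;> fin_cases j <;> simp [ht, hs, hq, huv, hvu, huw, hvw, hwu, hwv]
  · push Not at hW
    -- the orthogonal complement is alternating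
    have hf : LinearMap.ker (B u) ≠ ⊥ := by
      apply LinearMap.ker_ne_bot_of_finrank_lt
      rw [hV]; simp
    obtain ⟨e, he0, he1⟩ := (Submodule.ne_bot_iff _).mp hf
    rw [LinearMap.mem_ker] at he0
    have hee : B e e = 0 := hW e he0
    have hex : ∃ f₀, B e f₀ ≠ 0 := by
      by_contra h
      push Not at h
      exact he1 (hnd e h)
    obtain ⟨f₀, hf₀⟩ := hex
    obtain ⟨f₁, h1⟩ : ∃ f₁, B e f₁ = 1 :=
      ⟨(B e f₀)⁻¹ • f₀, by rw [map_smul, smul_eq_mul, inv_mul_cancel₀ hf₀]⟩
    have heu : B e u = 0 := by rw [hsy, he0]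
    obtain ⟨f, huf, hef⟩ : ∃ f, B u f = 0 ∧ B e f = 1 :=
      ⟨f₁ - B u f₁ • u, by rw [map_sub, map_smul, ht, smul_eq_mul, mul_one, sub_self],
        by rw [map_sub, map_smul, heu, h1, smul_zero, sub_zero]⟩
    have hff : B f f = 0 := hW f huf
    have hfu : B f u = 0 := by rw [hsy, huf]
    have hfe : B f e = 1 := by rw [hsy, hef]
    refine ⟨![u + e, u + f, u + e + f], ?_⟩
    intro i j
    fin_cases i <;> fin_cases j <;>
      simp [ht, he0, hee, heu, huf, hef, hff, hfu, hfe, hadd]

theorem exists_one {c : Matrix (Fin 3) (Fin 3) K} (h2 : (2 : K) = 0) (hs : c.transpose = c)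
    (hd : c.det ≠ 0) : ∃ g : Matrix (Fin 3) (Fin 3) K, g * c * g.transpose = 1 := by
  have hadd : ∀ a : K, a + a = 0 := fun a => by rw [← two_mul, h2, zero_mul]
  set B : LinearMap.BilinForm K (Fin 3 → K) := Matrix.toBilin' c with hB
  have hBa : ∀ u v, B u v = u ⬝ᵥ (c *ᵥ v) := fun u v => by rw [hB, Matrix.toBilin'_apply']
  have hsy : ∀ u v, B u v = B v u := by
    intro u v
    rw [hBa, hBa, Matrix.dotProduct_mulVec, ← Matrix.mulVec_transpose, hs, dotProduct_comm]
  have hnd : ∀ u, (∀ v, B u v = 0) → u = 0 := by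
    intro u hu
    have h1 : u ᵥ* c = 0 := by
      funext j
      have := hu (Pi.single j 1)
      rw [hBa, Matrix.dotProduct_mulVec] at this
      simpa using this
    have h3 : IsUnit c := (Matrix.isUnit_iff_isUnit_det _).mpr (isUnit_iff_ne_zero.mpr hd)
    exact Matrix.vecMul_injective_of_isUnit h3 (by simp [h1])
  have hne : ∃ i, c i i ≠ 0 := by
    by_contra h
    push Not at h
    apply hd
    have e01 : c 1 0 = c 0 1 := congrFun (congrFun hs 0) 1
    have e02 : c 2 0 = c 0 2 := congrFun (congrFun hs 0) 2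
    have e12 : c 2 1 = c 1 2 := congrFun (congrFun hs 1) 2
    rw [Matrix.det_fin_three, h 0, h 1, h 2, e01, e02, e12]
    have : (2 : K) * (c 0 1 * c 1 2 * c 0 2) = 0 := by rw [h2, zero_mul]
    linear_combination this
  obtain ⟨i, hi⟩ := hne
  have hu : B (Pi.single i 1) (Pi.single i 1) ≠ 0 := by
    rw [hBa]
    simpa using hi
  obtain ⟨r, hr⟩ := exists_orth h2 (by simp) B hsy hnd hu
  refine ⟨Matrix.of r, ?_⟩
  ext i j
  rw [Matrix.one_apply, ← hr i j, hBa, Matrix.mul_apply]
  simp only [Matrix.transpose_apply, Matrix.of_apply, dotProduct, Matrix.mulVec, Matrix.mul_apply]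
  simp only [Fin.sum_univ_three]
  ring

end gen

open Cfsg.Agent.H939.L64 in
/-- `c` symmetric of determinant one: `g c gᵀ = 1` with `g` of determinant one. -/
theorem exists_diag {c : Matrix.SpecialLinearGroup (Fin 3) KK} (h : c.1.transpose = c.1) :
    ∃ g : Matrix.SpecialLinearGroup (Fin 3) KK, g.1 * c.1 * g.1.transpose = 1 := by
  have h2 : (2 : KK) = 0 := by
    have := Cfsg.Agent.H413.L64.charKK
    exact_mod_cast CharP.cast_eq_zero KK 2
  obtain ⟨g, hg⟩ := exists_one h2 h (by rw [c.2]; exact one_ne_zero)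
  have h1 := congrArg Matrix.det hg
  rw [Matrix.det_mul, Matrix.det_mul, Matrix.det_transpose, c.2, Matrix.det_one, mul_one] at h1
  have h3 : (g.det - 1) * (g.det - 1) = 0 := by
    linear_combination h1 + (1 - g.det) * h2
  have h4 : g.det = 1 := by
    rcases mul_self_eq_zero.mp h3 with h5
    exact sub_eq_zero.mp h5
  exact ⟨⟨g, h4⟩, hg⟩

end Cfsg.Agent.H389.L34
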